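import Cfsg.Agent.Lib.KnownSimple.MultC.SpP
import Cfsg.Agent.Lib.LargeES.Sub
import Cfsg.Agent.Lib.LargeES.Simple

/-!
# A criterion for an involution centraliser of shape `2^{1+8} Sp₆(2)`
-/

set_option autoImplicit false

namespace Cfsg.Agent.Lib.KnownSimple.Co2Inv

open Subgroup Cfsg
open Cfsg.Agent.Lib.KnownSimple.MultC.SpP (Sp6 card_Sp6 instSimple6)
open scoped commutatorElement Pointwise

/-- Many conjugates: a bound for the centraliser. -/
theorem card_centralizer_le'' {J : Type*} [Group J] [Finite J] {m c : ℕ} (t : J) (u : Fin m → J)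
    (hu : ∀ i j, u i * t * (u i)⁻¹ = u j * t * (u j)⁻¹ → i = j) (hc : Nat.card J = m * c) (hm : 0 < m) :
    Nat.card (centralizer ({t} : Set J)) ≤ c := by
  classical
  let C := centralizer ({t} : Set J)
  let f : Fin m → J ⧸ C := fun i => QuotientGroup.mk (u i)
  have hf : Function.Injective f := by
    intro i j h
    have h1 : (u i)⁻¹ * u j ∈ C := QuotientGroup.eq.1 h
    have h2 := Subgroup.mem_centralizer_iff.1 h1 t rfl
    apply hu
    have h3 : u i * ((u i)⁻¹ * u j) * t * ((u i)⁻¹ * u j)⁻¹ * (u i)⁻¹ = u i * t * (u i)⁻¹ := by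
      rw [mul_assoc (u i), ← h2]
      group
    rw [← h3]
    group
  have h1 : m ≤ Nat.card (J ⧸ C) := by
    have := Nat.card_le_card_of_injective f hf
    rwa [Nat.card_fin] at this
  have h2 : Nat.card C * C.index = Nat.card J := Subgroup.card_mul_index C
  have h3 : C.index = Nat.card (J ⧸ C) := rfl
  rw [← h3] at h1
  rw [hc] at h2
  by_contra h4
  push Not at h4
  have h5 : m * c < C.index * Nat.card C := by
    have h6 : 0 < C.index := by omega
    calc m * c ≤ C.index * c := Nat.mul_le_mul_right _ h1
      _ < C.index * Nat.card C := Nat.mul_lt_mul_of_pos_left h4 (by omega)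
  rw [mul_comm C.index] at h5
  omega

section graph

variable {C : Type*} [Group C] [Finite C]

/-- The map on a graph. -/
theorem exists_psi (hC : Nat.card C ≤ 743178240) (Γ : Subgroup (C × Sp6))
    (h1 : ∀ σ : Sp6, ((1 : C), σ) ∈ Γ → σ = 1)
    (hs : ∀ σ : Sp6, ∃ c, (c, σ) ∈ Γ)
    (K : Subgroup C) (hK : ∀ x ∈ K, (x, (1 : Sp6)) ∈ Γ) (hcK : 512 ≤ Nat.card K) :
    ∃ ψ : C →* Sp6, Function.Surjective ψ ∧ (∀ c σ, (c, σ) ∈ Γ → ψ c = σ) ∧ Nat.card ψ.ker = 512 ∧ ψ.ker = K := by
  classical
  let p1 : ↥Γ →* C := (MonoidHom.fst _ _).comp Γ.subtype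
  let p2 : ↥Γ →* Sp6 := (MonoidHom.snd _ _).comp Γ.subtype
  have hp1 : Function.Injective p1 := by
    rw [injective_iff_map_eq_one]
    rintro ⟨⟨c, σ⟩, h⟩ hc
    have hc' : c = 1 := hc
    subst hc'
    have := h1 σ h
    subst this
    rfl
  have hp2 : Function.Surjective p2 := by
    intro σ
    obtain ⟨c, hc⟩ := hs σ
    exact ⟨⟨(c, σ), hc⟩, rfl⟩
  have hcΓ : Nat.card Γ ≤ 743178240 := (Nat.card_le_card_of_injective p1 hp1).trans hC
  have hKer : Nat.card p2.ker * 1451520 = Nat.card Γ := by
    have h2 := Subgroup.card_mul_index p2.ker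
    rw [Subgroup.index_ker, MonoidHom.range_eq_top.2 hp2, Subgroup.card_top, card_Sp6] at h2
    exact h2
  -- the kernel of the second projection contains a copy of `K`
  let iK : ↥K → ↥p2.ker := fun x => ⟨⟨(x.1, 1), hK x.1 x.2⟩, rfl⟩
  have hiK : Function.Injective iK := by
    intro x y h
    have h2 : (x.1, (1 : Sp6)) = (y.1, (1 : Sp6)) := congrArg (fun u : ↥p2.ker => ((u : ↥Γ) : C × Sp6)) h
    exact Subtype.ext (congrArg Prod.fst h2)
  have hle : Nat.card K ≤ Nat.card p2.ker := Nat.card_le_card_of_injective iK hiK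
  have hcK2 : Nat.card p2.ker = 512 := by omega
  have hcard : Nat.card Γ = 743178240 := by
    rw [← hKer, hcK2]
  have hb : Function.Bijective p1 := hp1.bijective_of_nat_card_le (by rw [hcard]; exact hC)
  let e : ↥Γ ≃* C := MulEquiv.ofBijective p1 hb
  have he : ∀ c σ (h : (c, σ) ∈ Γ), e.symm c = ⟨(c, σ), h⟩ := by
    intro c σ h
    rw [MulEquiv.symm_apply_eq]
    rfl
  let ψ : C →* Sp6 := p2.comp e.symm.toMonoidHom
  have hψ : ∀ c σ, (c, σ) ∈ Γ → ψ c = σ := by
    intro c σ h
    show p2 (e.symm c) = σ
    rw [he c σ h]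
    rfl
  have hψK : ∀ x, ψ x = 1 ↔ (x, (1 : Sp6)) ∈ Γ := by
    intro x
    constructor
    · intro hx
      have h2 : p2 (e.symm x) = 1 := hx
      have h3 : ((e.symm x : ↥Γ) : C × Sp6) = (x, 1) := by
        refine Prod.ext ?_ h2
        show p1 (e.symm x) = x
        exact e.apply_symm_apply x
      have h4 := (e.symm x).2
      rwa [h3] at h4
    · intro hx
      exact hψ _ _ hx
  have hcψ : Nat.card ψ.ker = 512 := by
    have h2 : Nat.card ψ.ker * 1451520 = Nat.card C := by
      have h3 := Subgroup.card_mul_index ψ.ker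
      have hsurj : Function.Surjective ψ := fun σ => by
        obtain ⟨c, hc⟩ := hs σ
        exact ⟨c, hψ c σ hc⟩
      rw [Subgroup.index_ker, MonoidHom.range_eq_top.2 hsurj, Subgroup.card_top, card_Sp6] at h3
      exact h3
    have h3 : Nat.card C = 743178240 := by
      rw [← Nat.card_congr e.toEquiv, hcard]
    omega
  refine ⟨ψ, ?_, hψ, hcψ, ?_⟩
  · intro σ
    obtain ⟨c, hc⟩ := hs σ
    exact ⟨c, hψ c σ hc⟩
  · symm
    apply Subgroup.eq_of_le_of_card_ge
    · intro x hx
      exact (hψK x).2 (hK x hx)
    · rw [hcψ]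
      exact hcK

end graph

/-! ### Extraspecial groups from generators -/

section es

variable {P : Type*} [Group P] [Finite P]

/-- The partner of an index. -/
def pr (i : Fin 8) : Fin 8 := ⟨i.val ^^^ 1, by revert i; decide⟩

theorem pr_pr : ∀ i, pr (pr i) = i := by decide

/-- The sign of a commutator. -/
noncomputable def sgnC (x a : P) : ℤˣ := by
  classical
  exact if x * a = a * x then 1 else -1

theorem es_of_gens (z : P) (hz : z ≠ 1) (hzz : z * z = 1) (hzc : ∀ x, x * z = z * x)
    (a : Fin 8 → P) (hsq : ∀ i, a i * a i = z)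
    (hco : ∀ i j, j ≠ pr i → a i * a j = a j * a i)
    (hco2 : ∀ i, a i * a (pr i) = z * a (pr i) * a i) :
    512 ≤ Nat.card P ∧ (Nat.card P = 512 → IsExtraspecial 2 P) := by
  classical
  let S : Set P := Set.range a ∪ {z}
  let R : Subgroup P := closure S
  -- the commutator relation
  have hcl : ∀ x ∈ R, ∀ y ∈ R, x * y = y * x ∨ x * y = z * y * x := by
    have hgen : ∀ x ∈ S, ∀ y ∈ S, x * y = y * x ∨ x * y = z * y * x := by
      rintro x (⟨i, rfl⟩ | hx) y (⟨j, rfl⟩ | hy)
      · by_cases h : j = pr i
        · subst h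
          exact Or.inr (hco2 i)
        · exact Or.inl (hco i j h)
      · have hy' : y = z := hy
        rw [hy']
        exact Or.inl (hzc _)
      · have hx' : x = z := hx
        rw [hx']
        exact Or.inl (hzc _).symm
      · have hy' : y = z := hy
        have hx' : x = z := hx
        rw [hy', hx']
        exact Or.inl rfl
    have hleft : ∀ x ∈ R, ∀ y ∈ S, x * y = y * x ∨ x * y = z * y * x := by
      intro x hx y hy
      induction hx using Subgroup.closure_induction with
      | mem u hu => exact hgen u hu y hy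
      | one => left; simp
      | mul u v _ _ hu hv =>
        rcases hu with hu | hu <;> rcases hv with hv | hv
        · left
          rw [mul_assoc, hv, ← mul_assoc, hu, mul_assoc]
        · right
          rw [mul_assoc, hv, ← mul_assoc, ← mul_assoc, hzc u, mul_assoc z, hu]
          simp only [mul_assoc]
        · right
          rw [mul_assoc, hv, ← mul_assoc, hu]
          simp only [mul_assoc]
        · left
          rw [mul_assoc, hv, ← mul_assoc, ← mul_assoc, hzc u, mul_assoc z, hu]
          have : z * (z * y * u) * v = (z * z) * y * u * v := by simp only [mul_assoc]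
          rw [this, hzz]
          simp only [one_mul, mul_assoc]
      | inv u _ hu =>
        rcases hu with hu | hu
        · left
          calc u⁻¹ * y = u⁻¹ * (y * u) * u⁻¹ := by group
            _ = u⁻¹ * (u * y) * u⁻¹ := by rw [hu]
            _ = y * u⁻¹ := by group
        · right
          have h2 : u⁻¹ * y = z * y * u⁻¹ := by
            have h3 : y * u⁻¹ = u⁻¹ * (u * y) * u⁻¹ := by group
            have h4 : y * u⁻¹ = z * u⁻¹ * y := by
              rw [h3, hu]
              have h5 : u⁻¹ * (z * y * u) * u⁻¹ = u⁻¹ * z * y := by group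
              rw [h5, ← hzc u⁻¹]
            calc u⁻¹ * y = (z * z) * (u⁻¹ * y) := by rw [hzz, one_mul]
              _ = z * (z * u⁻¹ * y) := by group
              _ = z * (y * u⁻¹) := by rw [h4]
              _ = z * y * u⁻¹ := by group
          exact h2
    intro x hx y hy
    induction hy using Subgroup.closure_induction with
    | mem u hu => exact hleft x hx u hu
    | one => left; simp
    | mul u v _ _ hu hv =>
      rcases hu with hu | hu <;> rcases hv with hv | hv
      · left
        rw [← mul_assoc, hu, mul_assoc, hv, mul_assoc]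
      · right
        rw [← mul_assoc, hu, mul_assoc, hv]
        have h3 : u * (z * v * x) = (u * z) * v * x := by simp only [mul_assoc]
        rw [h3, hzc u]
        simp only [mul_assoc]
      · right
        rw [← mul_assoc, hu, mul_assoc, hv]
        simp only [mul_assoc]
      · left
        rw [← mul_assoc, hu, mul_assoc, hv]
        have h3 : z * u * (z * v * x) = (z * (u * z)) * v * x := by simp only [mul_assoc]
        rw [h3, hzc u, ← mul_assoc, hzz]
        simp only [one_mul, mul_assoc]
    | inv u _ hu =>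
      rcases hu with hu | hu
      · left
        have h2 : x * u⁻¹ = u⁻¹ * (u * x) * u⁻¹ := by group
        rw [h2, ← hu]
        group
      · right
        have h3 : u * x = z * x * u := by
          have h4 : z * (x * u) = z * (z * u * x) := by rw [hu]
          have h5 : z * (z * u * x) = (z * z) * (u * x) := by simp only [mul_assoc]
          rw [h5, hzz, one_mul] at h4
          rw [← h4, mul_assoc]
        have h2 : x * u⁻¹ = u⁻¹ * (u * x) * u⁻¹ := by group
        rw [h2, h3]
        have h6 : u⁻¹ * (z * x * u) * u⁻¹ = u⁻¹ * z * x := by group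
        rw [h6, ← hzc u⁻¹]
  have hzR : z ∈ R := subset_closure (Or.inr rfl)
  have haR : ∀ i, a i ∈ R := fun i => subset_closure (Or.inl ⟨i, rfl⟩)
  -- the characters
  let cc : Fin 8 → (↥R →* ℤˣ) := fun j => MonoidHom.mk' (fun x : ↥R => sgnC (x : P) (a j)) (by
    intro x y
    have hx := hcl x x.2 (a j) (haR j)
    have hy := hcl y y.2 (a j) (haR j)
    have hne : ∀ u v : P, u = z * v → u ≠ v := by
      intro u v h1 h2
      rw [h2] at h1
      exact hz (mul_eq_right.1 h1.symm)
    show sgnC ((x : P) * y) (a j) = sgnC (x : P) (a j) * sgnC (y : P) (a j)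
    unfold sgnC
    rcases hx with hx | hx <;> rcases hy with hy | hy
    · have h3 : (x : P) * y * a j = a j * (x * y) := by
        rw [mul_assoc, hy, ← mul_assoc, hx, mul_assoc]
      rw [if_pos h3, if_pos hx, if_pos hy, mul_one]
    · have h3 : (x : P) * y * a j = z * (a j * (x * y)) := by
        rw [mul_assoc, hy, ← mul_assoc, ← mul_assoc, hzc, mul_assoc z, hx]
        simp only [mul_assoc]
      have h4 : (y : P) * a j = z * (a j * y) := by
        rw [hy, mul_assoc]
      rw [if_neg (hne _ _ h3), if_pos hx, if_neg (hne _ _ h4), one_mul]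
    · have h3 : (x : P) * y * a j = z * (a j * (x * y)) := by
        rw [mul_assoc, hy, ← mul_assoc, hx]
        simp only [mul_assoc]
      have h4 : (x : P) * a j = z * (a j * x) := by
        rw [hx, mul_assoc]
      rw [if_neg (hne _ _ h3), if_neg (hne _ _ h4), if_pos hy, mul_one]
    · have h3 : (x : P) * y * a j = a j * (x * y) := by
        rw [mul_assoc, hy, ← mul_assoc, ← mul_assoc, hzc, mul_assoc z, hx]
        have h5 : z * (z * a j * x) * y = (z * z) * (a j * (x * y)) := by simp only [mul_assoc]
        rw [h5, hzz, one_mul]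
      have h4 : (x : P) * a j = z * (a j * x) := by
        rw [hx, mul_assoc]
      have h6 : (y : P) * a j = z * (a j * y) := by
        rw [hy, mul_assoc]
      rw [if_pos h3, if_neg (hne _ _ h4), if_neg (hne _ _ h6)]
      decide)
  have hcc : ∀ j (x : ↥R), cc j x = sgnC (x : P) (a j) := fun j x => rfl
  let χ : ↥R →* (Fin 8 → ℤˣ) := MonoidHom.pi cc
  have hχ : ∀ (x : ↥R) j, χ x j = sgnC (x : P) (a j) := fun x j => rfl
  -- surjectivity of the characters
  have hbasis : ∀ j i, χ ⟨a (pr j), haR _⟩ i = if i = j then -1 else 1 := by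
    intro j i
    rw [hχ]
    unfold sgnC
    by_cases h : i = j
    · subst h
      rw [if_pos rfl, if_neg]
      intro h2
      have h3 := hco2 (pr i)
      have h4 : a (pr i) * a i = a i * a (pr i) := h2
      rw [pr_pr, h4, mul_assoc] at h3
      exact hz (mul_eq_right.1 h3.symm)
    · rw [if_neg h, if_pos]
      apply hco
      intro h2
      apply h
      rw [h2, pr_pr]
  have hχs : Function.Surjective χ := by
    intro s
    have hmem : s ∈ χ.range := by
      have e : s = ∏ j ∈ Finset.univ.filter (fun j => s j = -1), (fun i => if i = j then (-1 : ℤˣ) else 1) := by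
        funext i
        rw [Finset.prod_apply]
        rw [Finset.prod_ite_eq]
        by_cases h : s i = -1
        · rw [if_pos (by simp [h]), h]
        · rw [if_neg (by simpa using h)]
          rcases Int.units_eq_one_or (s i) with h2 | h2
          · exact h2
          · exact absurd h2 h
      rw [e]
      refine Subgroup.prod_mem _ ?_
      intro j _
      refine ⟨⟨a (pr j), haR _⟩, ?_⟩
      funext i
      exact hbasis j i
    exact hmem
  have hcT : Nat.card (Fin 8 → ℤˣ) = 256 := by
    rw [Nat.card_fun, Nat.card_eq_fintype_card, Fintype.card_units_int]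
    simp
  have hRc : Nat.card χ.ker * 256 = Nat.card R := by
    have h2 := Subgroup.card_mul_index χ.ker
    rw [Subgroup.index_ker, MonoidHom.range_eq_top.2 hχs, Subgroup.card_top, hcT] at h2
    exact h2
  -- the element `z` in the kernel
  let zz : ↥χ.ker := ⟨⟨z, hzR⟩, by
    rw [MonoidHom.mem_ker]
    funext j
    rw [hχ]
    unfold sgnC
    rw [if_pos]
    · rfl
    · exact (hzc (a j)).symm⟩
  have hzz1 : zz ≠ 1 := by
    intro h
    have h2 : z = 1 := congrArg (fun u : ↥χ.ker => ((u : ↥R) : P)) h
    exact hz h2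
  have hk2 : 2 ≤ Nat.card χ.ker := by
    haveI : Nontrivial ↥χ.ker := ⟨⟨zz, 1, hzz1⟩⟩
    exact Finite.one_lt_card_iff_nontrivial.2 inferInstance
  have hR512' : Nat.card R ≤ Nat.card P := Subgroup.card_le_card_group R
  refine ⟨by omega, fun hcard => ?_⟩
  have hR512 : Nat.card R ≤ 512 := by
    rw [← hcard]
    exact hR512'
  have hkc : Nat.card χ.ker = 2 := by omega
  have hRtop : R = ⊤ := by
    apply Subgroup.eq_top_of_card_eq
    rw [hcard]
    omega
  have hallR : ∀ x : P, x ∈ R := fun x => by
    rw [hRtop]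
    exact mem_top x
  -- the facts
  have hzord : orderOf z = 2 := orderOf_eq_prime (by rw [pow_two]; exact hzz) hz
  have hzm : ∀ c, c = 1 ∨ c = z → c ∈ zpowers z := by
    rintro c (rfl | rfl)
    · exact one_mem _
    · exact mem_zpowers _
  apply Cfsg.Agent.Lib.LargeES.isExtraspecial_two_of z hzord
  · intro y hy
    apply hzm
    have hyk : (⟨y, hallR y⟩ : ↥R) ∈ χ.ker := by
      rw [MonoidHom.mem_ker]
      funext j
      rw [hχ]
      unfold sgnC
      rw [if_pos]
      · rfl
      · exact hy (a j)
    obtain ⟨u, hu, huniq⟩ := (Nat.card_eq_two_iff' (1 : ↥χ.ker)).1 hkc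
    by_cases h1 : (⟨⟨y, hallR y⟩, hyk⟩ : ↥χ.ker) = 1
    · left
      exact congrArg (fun u : ↥χ.ker => ((u : ↥R) : P)) h1
    · right
      have h2 := (huniq _ h1).trans (huniq zz hzz1).symm
      exact congrArg (fun u : ↥χ.ker => ((u : ↥R) : P)) h2
  · intro u
    exact (hzc u).symm
  · -- squares
    intro x
    apply hzm
    have hx : x ∈ R := hallR x
    induction hx using Subgroup.closure_induction with
    | mem u hu =>
      rcases hu with ⟨i, rfl⟩ | hu
      · exact Or.inr (hsq i)
      · have hu' : u = z := hu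
        rw [hu']
        exact Or.inl hzz
    | one => left; simp
    | mul u v hu hv ihu ihv =>
      have h3 : u * v * (u * v) = u * (v * u) * v := by simp only [mul_assoc]
      rcases hcl v hv u hu with h | h
      · rw [h3, h]
        have h4 : u * (u * v) * v = (u * u) * (v * v) := by simp only [mul_assoc]
        rw [h4]
        rcases ihu with h5 | h5 <;> rcases ihv with h6 | h6 <;> rw [h5, h6] <;> simp [hzz]
      · rw [h3, h]
        have h4 : u * (z * u * v) * v = z * ((u * u) * (v * v)) := by
          calc u * (z * u * v) * v = (u * z) * u * v * v := by simp only [mul_assoc]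
            _ = (z * u) * u * v * v := by rw [hzc u]
            _ = z * ((u * u) * (v * v)) := by simp only [mul_assoc]
        rw [h4]
        rcases ihu with h5 | h5 <;> rcases ihv with h6 | h6 <;> rw [h5, h6] <;> simp [hzz]
    | inv u _ ih =>
      have h3 : u⁻¹ * u⁻¹ = (u * u)⁻¹ := by group
      rw [h3]
      rcases ih with h | h
      · left
        rw [h, inv_one]
      · right
        rw [h]
        exact inv_eq_of_mul_eq_one_left hzz
  · -- commutators
    intro x y
    apply hzm
    rw [commutatorElement_def]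
    rcases hcl x (hallR x) y (hallR y) with h | h
    · left
      rw [h]
      group
    · right
      rw [h]
      group
  · -- non-commuting elements
    refine ⟨a 0, a (pr 0), ?_⟩
    intro h
    have h3 := hco2 0
    rw [h, mul_assoc] at h3
    exact hz (mul_eq_right.1 h3.symm)

end es

/-! ### The core -/

section core

variable {C : Type*} [Group C] [Finite C]

theorem core_eq (ψ : C →* Sp6) (hψ : Function.Surjective ψ) (hc : Nat.card ψ.ker = 512) :
    pCore 2 C = ψ.ker := by
  classical
  have hP : IsPGroup 2 ψ.ker := IsPGroup.of_card (n := 9) (by rw [hc]; norm_num)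
  apply le_antisymm
  · refine sSup_le ?_
    rintro N ⟨hN, hNp⟩
    have h1 : (N.map ψ).Normal := hN.map ψ hψ
    rcases h1.eq_bot_or_eq_top with h | h
    · intro x hx
      rw [MonoidHom.mem_ker]
      have h2 : ψ x ∈ N.map ψ := Subgroup.mem_map_of_mem ψ hx
      rw [h] at h2
      exact Subgroup.mem_bot.1 h2
    · exfalso
      have h3 : IsPGroup 2 ↥(N.map ψ) := hNp.map ψ
      rw [h] at h3
      have h4 : IsPGroup 2 Sp6 := h3.of_equiv Subgroup.topEquiv
      haveI : Fact (Nat.Prime 2) := ⟨Nat.prime_two⟩
      obtain ⟨k, hk⟩ := IsPGroup.iff_card.1 h4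
      rw [card_Sp6] at hk
      have h5 : (3 : ℕ) ∣ 2 ^ k := by
        rw [← hk]
        norm_num
      have h6 := (Nat.prime_dvd_prime_iff_eq (by norm_num) Nat.prime_two).1 (Nat.Prime.dvd_of_dvd_pow (by norm_num) h5)
      norm_num at h6
  · exact le_sSup ⟨inferInstance, hP⟩

theorem final_of (ψ : C →* Sp6) (hψ : Function.Surjective ψ) (hc : Nat.card ψ.ker = 512)
    (hE : IsExtraspecial 2 ψ.ker) :
    IsExtraspecial 2 (pCore 2 C) ∧ Nat.card (pCore 2 C) = 2 ^ 9 ∧
      Nonempty (C ⧸ pCore 2 C ≃* Matrix.symplecticGroup (Fin 3) (ZMod 2)) := by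
  have h := core_eq ψ hψ hc
  refine ⟨?_, ?_, ?_⟩
  · rw [h]
    exact hE
  · rw [h, hc]
    norm_num
  · exact ⟨(QuotientGroup.quotientMulEquivOfEq h).trans (QuotientGroup.quotientKerEquivOfSurjective ψ hψ)⟩

end core

/-- The centraliser under an isomorphism. -/
def centEquiv' {A B : Type*} [Group A] [Group B] (e : A ≃* B) (t : A) :
    ↥(centralizer ({t} : Set A)) ≃* ↥(centralizer ({e t} : Set B)) where
  toFun x := ⟨e x, by
    refine Subgroup.mem_centralizer_iff.2 ?_
    intro h hh
    have hh' : h = e t := hh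
    rw [hh', ← map_mul, ← map_mul, Subgroup.mem_centralizer_iff.1 x.2 t rfl]⟩
  invFun x := ⟨e.symm x, by
    refine Subgroup.mem_centralizer_iff.2 ?_
    intro h hh
    have hh' : h = t := hh
    rw [hh']
    apply e.injective
    rw [map_mul, map_mul, e.apply_symm_apply, Subgroup.mem_centralizer_iff.1 x.2 (e t) rfl]⟩
  left_inv x := Subtype.ext (e.symm_apply_apply _)
  right_inv x := Subtype.ext (e.apply_symm_apply _)
  map_mul' x y := Subtype.ext (map_mul e _ _)

/-- Transport of the kernel. -/
theorem transport {C C' : Type*} [Group C] [Group C'] [Finite C] [Finite C'] (f : C ≃* C') (ψ : C →* Sp6)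
    (hψ : Function.Surjective ψ) (hc : Nat.card ψ.ker = 512) (hE : IsExtraspecial 2 ψ.ker) :
    ∃ ψ' : C' →* Sp6, Function.Surjective ψ' ∧ Nat.card ψ'.ker = 512 ∧ IsExtraspecial 2 ψ'.ker := by
  let ψ' : C' →* Sp6 := ψ.comp f.symm.toMonoidHom
  let g : ↥ψ.ker ≃* ↥ψ'.ker :=
    { toFun := fun x => ⟨f x, by
        rw [MonoidHom.mem_ker]
        show ψ (f.symm (f x)) = 1
        rw [MulEquiv.symm_apply_apply]
        exact x.2⟩
      invFun := fun x => ⟨f.symm x, x.2⟩
      left_inv := fun x => Subtype.ext (f.symm_apply_apply _)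
      right_inv := fun x => Subtype.ext (f.apply_symm_apply _)
      map_mul' := fun x y => Subtype.ext (map_mul f _ _) }
  refine ⟨ψ', ?_, ?_, ?_⟩
  · intro σ
    obtain ⟨c, rfl⟩ := hψ σ
    refine ⟨f c, ?_⟩
    show ψ (f.symm (f c)) = _
    rw [MulEquiv.symm_apply_apply]
  · rw [← Nat.card_congr g.toEquiv, hc]
  · exact Cfsg.Agent.Lib.LargeES.isExtraspecial_congr g hE

end Cfsg.Agent.Lib.KnownSimple.Co2Inv
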