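import Cfsg.Agent.Lib.KnownSimple.Leech.Co2.InvDefs

/-!
# The second Conway group: checks of the conjugates of an involution
-/

set_option autoImplicit false

namespace Cfsg.Agent.Lib.KnownSimple.Co2Inv

open Cfsg Cfsg.Spor Cfsg.Agent.Lib.Compute Cfsg.Agent.Lib.KnownSimple.PE Cfsg.Agent.Lib.KnownSimple.Leech

set_option maxRecDepth 100000 in
theorem cCls0 : chunk clsChk 2277 0 = true := by decide +kernel
set_option maxRecDepth 100000 in
theorem cCls1 : chunk clsChk 2277 1 = true := by decide +kernel
set_option maxRecDepth 100000 in
theorem cCls2 : chunk clsChk 2277 2 = true := by decide +kernel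
set_option maxRecDepth 100000 in
theorem cCls3 : chunk clsChk 2277 3 = true := by decide +kernel
set_option maxRecDepth 100000 in
theorem cCls4 : chunk clsChk 2277 4 = true := by decide +kernel
set_option maxRecDepth 100000 in
theorem cCls5 : chunk clsChk 2277 5 = true := by decide +kernel
set_option maxRecDepth 100000 in
theorem cCls6 : chunk clsChk 2277 6 = true := by decide +kernel
set_option maxRecDepth 100000 in
theorem cCls7 : chunk clsChk 2277 7 = true := by decide +kernel
set_option maxRecDepth 100000 in
theorem cCls8 : chunk clsChk 2277 8 = true := by decide +kernel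

end Cfsg.Agent.Lib.KnownSimple.Co2Inv
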