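import Cfsg.Agent.Lib.KnownSimple.Leech.Co2.InvDefs

/-!
# The second Conway group: checks of the conjugates of an involution
-/

set_option autoImplicit false

namespace Cfsg.Agent.Lib.KnownSimple.Co2Inv

open Cfsg Cfsg.Spor Cfsg.Agent.Lib.Compute Cfsg.Agent.Lib.KnownSimple.PE Cfsg.Agent.Lib.KnownSimple.Leech

set_option maxRecDepth 100000 in
theorem cCls9 : chunk clsChk 2277 9 = true := by decide +kernel
set_option maxRecDepth 100000 in
theorem cCls10 : chunk clsChk 2277 10 = true := by decide +kernel
set_option maxRecDepth 100000 in
theorem cCls11 : chunk clsChk 2277 11 = true := by decide +kernel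
set_option maxRecDepth 100000 in
theorem cCls12 : chunk clsChk 2277 12 = true := by decide +kernel
set_option maxRecDepth 100000 in
theorem cCls13 : chunk clsChk 2277 13 = true := by decide +kernel
set_option maxRecDepth 100000 in
theorem cCls14 : chunk clsChk 2277 14 = true := by decide +kernel
set_option maxRecDepth 100000 in
theorem cCls15 : chunk clsChk 2277 15 = true := by decide +kernel
set_option maxRecDepth 100000 in
theorem cCls16 : chunk clsChk 2277 16 = true := by decide +kernel

end Cfsg.Agent.Lib.KnownSimple.Co2Inv
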