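import Cfsg.Agent.Lib.KnownSimple.Leech.Co2.InvDefs

/-!
# The second Conway group: checks of the conjugates of an involution
-/

set_option autoImplicit false

namespace Cfsg.Agent.Lib.KnownSimple.Co2Inv

open Cfsg Cfsg.Spor Cfsg.Agent.Lib.Compute Cfsg.Agent.Lib.KnownSimple.PE Cfsg.Agent.Lib.KnownSimple.Leech

set_option maxRecDepth 100000 in
theorem cCls17 : chunk clsChk 2277 17 = true := by decide +kernel
set_option maxRecDepth 100000 in
theorem cCls18 : chunk clsChk 2277 18 = true := by decide +kernel
set_option maxRecDepth 100000 in
theorem cCls19 : chunk clsChk 2277 19 = true := by decide +kernel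
set_option maxRecDepth 100000 in
theorem cCls20 : chunk clsChk 2277 20 = true := by decide +kernel
set_option maxRecDepth 100000 in
theorem cCls21 : chunk clsChk 2277 21 = true := by decide +kernel
set_option maxRecDepth 100000 in
theorem cCls22 : chunk clsChk 2277 22 = true := by decide +kernel
set_option maxRecDepth 100000 in
theorem cCls23 : chunk clsChk 2277 23 = true := by decide +kernel
set_option maxRecDepth 100000 in
theorem cCls24 : chunk clsChk 2277 24 = true := by decide +kernel

end Cfsg.Agent.Lib.KnownSimple.Co2Inv
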