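import Cfsg.Agent.Lib.KnownSimple.Leech.Co2.InvDefs

/-!
# The second Conway group: further checks
-/

set_option autoImplicit false

namespace Cfsg.Agent.Lib.KnownSimple.Co2Inv

open Cfsg Cfsg.Spor Cfsg.Agent.Lib.Compute Cfsg.Agent.Lib.KnownSimple.PE Cfsg.Agent.Lib.KnownSimple.Leech
open Cfsg.Agent.Lib.KnownSimple.Leech.Co2 (pq N)
open Cfsg.Agent.Lib.KnownSimple.Leech.Co2Data
open Cfsg.Agent.Lib.KnownSimple.Co2InvData
open Cfsg.Agent.Lib.KnownSimple.MultC.SpP (I3 vec6 ord6)
open Matrix

theorem iChk0 : allBelow (fun i => Nat.beq (pq ti0B (pq t0B i)) i) N = true := by decide +kernel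
theorem iChk1 : allBelow (fun i => Nat.beq (pq ti1B (pq t1B i)) i) N = true := by decide +kernel
theorem iChk2 : allBelow (fun i => Nat.beq (pq ti2B (pq t2B i)) i) N = true := by decide +kernel
theorem tChkAll : allBelow tChk N = true := by decide +kernel
theorem gChk0 : allBelow (genChk 0) N = true := by decide +kernel
theorem gChk1 : allBelow (genChk 1) N = true := by decide +kernel

theorem commChk : ∀ k, k < 4 → wEqT (gwF k ++ [7]) ([7] ++ gwF k) = true := by decide +kernel
theorem invOk : ∀ k, k < 8 → okK k = true → wEqT [invK k, k] [] = true := by decide +kernel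
theorem notOne : wEqT [7] [] = false := by decide +kernel
theorem sqT : wEqT [7, 7] [] = true := by decide +kernel
theorem inv0 : wEqT (gwF 2 ++ gwF 0) [] = true := by decide +kernel
theorem inv1 : wEqT (gwF 3 ++ gwF 1) [] = true := by decide +kernel
theorem relSq : ∀ i, i < 8 → wEqT (fl i ++ fl i) [7] = true := by decide +kernel
theorem relC : ∀ i, i < 8 → ∀ j, j < 8 → chkC i j = true := by decide +kernel

theorem witChk : ∀ l, l < 64 → witL.getD l 0 < N ∧ mk (witL.getD l 0) = l := by decide +kernel

end Cfsg.Agent.Lib.KnownSimple.Co2Inv
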