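import Cfsg.Agent.Lib.KnownSimple.Leech.Co2.InvMat

/-!
# The second Conway group: checks on matrices
-/

set_option autoImplicit false

namespace Cfsg.Agent.Lib.KnownSimple.Co2Inv

open Cfsg.Agent.Lib.KnownSimple.Co2InvData
open Cfsg.Agent.Lib.KnownSimple.MultC.SpP (I3 vec6 ord6)
open Matrix

theorem symChk : ∀ k, k < 4 → mA k * Matrix.J (Fin 3) (ZMod 2) * (mA k)ᵀ = Matrix.J (Fin 3) (ZMod 2) := by decide +kernel
theorem matInv0 : mA 2 * mA 0 = 1 := by decide +kernel
theorem matInv1 : mA 3 * mA 1 = 1 := by decide +kernel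
theorem formChk : ∀ k, k < 2 → ∀ l, l < 64 → ∀ m, m < 64 → qq (pik k l) (mA k *ᵥ vec6 m) = qq l (vec6 m) := by decide +kernel
theorem sepChk : ∀ m, m < 64 → ∀ m', m' < 64 → (∀ l, l < 64 → qq l (vec6 m) = qq l (vec6 m')) → m = m' := by decide +kernel
theorem conjChk : ∀ k, k < 2 → ∀ m, m < 64 → mA k * Cfsg.sympTransvection 3 (vec6 m) 1 = Cfsg.sympTransvection 3 (vec6 (pvk k m)) 1 * mA k := by decide +kernel
theorem wordT : wMat w0L = Cfsg.sympTransvection 3 (vec6 l0N) 1 := by decide +kernel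
theorem treeChk : ∀ l, l < 64 → l ≠ 0 → evv (trL.getD l []) l0N = l := by decide +kernel
theorem vec0 : Cfsg.sympTransvection 3 (vec6 0) (1 : ZMod 2) = 1 := by decide +kernel
theorem wordQ : ∀ i, i < 8 → wMat (aWL.getD i []) = 1 := by decide +kernel

end Cfsg.Agent.Lib.KnownSimple.Co2Inv
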