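import Cfsg.Agent.Lib.KnownSimple.Leech.Co2.InvData
import Cfsg.Agent.Lib.KnownSimple.Leech.Co2.InvAbs

/-!
# The second Conway group: matrices and quadratic forms
-/

set_option autoImplicit false

namespace Cfsg.Agent.Lib.KnownSimple.Co2Inv

open Cfsg.Agent.Lib.KnownSimple.Co2InvData
open Cfsg.Agent.Lib.KnownSimple.MultC.SpP (I3 vec6 ord6)
open Matrix

/-- The quadratic form with a given number. -/
def qq (l : ℕ) (v : I3 → ZMod 2) : ZMod 2 :=
  ∑ i : Fin 3, v (Sum.inl i) * v (Sum.inr i) +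
    ∑ i : Fin 3, (vec6 l (Sum.inl i) * v (Sum.inr i) + vec6 l (Sum.inr i) * v (Sum.inl i))

/-- The matrix with given rows. -/
def matOf (r : List ℕ) : Matrix I3 I3 (ZMod 2) :=
  fun i j => (((r.getD (ord6 i) 0 / 2 ^ ord6 j) % 2 : ℕ) : ZMod 2)

/-- The matrices of the generators. -/
def mA (k : ℕ) : Matrix I3 I3 (ZMod 2) := if k < 4 then matOf (matL.getD k []) else 1

/-- The product of the matrices of a word. -/
def wMat (l : List ℕ) : Matrix I3 I3 (ZMod 2) := (l.map mA).prod

/-- The action on forms. -/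
def pik (k l : ℕ) : ℕ := if k = 0 then pi0L.getD l 0 else pi1L.getD l 0

/-- The action on vectors. -/
def pvk (k m : ℕ) : ℕ := if k = 0 then pv0L.getD m 0 else pv1L.getD m 0

/-- A word acting on vectors. -/
def evv (l : List ℕ) (m : ℕ) : ℕ := l.foldr pvk m

end Cfsg.Agent.Lib.KnownSimple.Co2Inv
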