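import Cfsg.Agent.Lib.KnownSimple.Leech.Co2.Pre
import Cfsg.Agent.Lib.KnownSimple.Leech.Co2.InvMat
import Cfsg.Agent.Lib.KnownSimple.Leech.Co2.InvAbs

/-!
# The second Conway group: words for an involution centraliser, and the conjugates of the involution
-/

set_option autoImplicit false

namespace Cfsg.Agent.Lib.KnownSimple.Co2Inv

open Cfsg Cfsg.Spor Cfsg.Agent.Lib.Compute Cfsg.Agent.Lib.Golay Cfsg.Agent.Lib.KnownSimple.PE
open Cfsg.Agent.Lib.KnownSimple Cfsg.Agent.Lib.KnownSimple.AutRigid
open Cfsg.Agent.Lib.KnownSimple.Leech Cfsg.Agent.Lib.KnownSimple.Leech.Co2Data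
open Cfsg.Agent.Lib.KnownSimple.Leech.Co2 (pq N)
open Cfsg.Agent.Lib.KnownSimple.Co2InvData
open Cfsg.Agent.Lib.KnownSimple.MultC.SpP (I3 vec6 ord6)
open Matrix

/-- The tables of the generators. -/
noncomputable def tL : List (List ℕ) := [t0B, t0B, ti0B, t1B, ti1B, t2B, ti2B, tTB]

/-- A table of a generator, the identity for numbers which are not those of generators. -/
noncomputable def Tc (k i : ℕ) : ℕ := bcond (Nat.blt k 8) (pq (lgetD t0B tL k) i) i

/-- The code of a word. -/
noncomputable def wE (l : List ℕ) (i : ℕ) : ℕ := List.rec i (fun k _ ih => force ih (Tc k)) l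

/-- The inverses of the generators. -/
def invKL : List ℕ := [0, 2, 1, 4, 3, 6, 5, 7]
/-- The inverse of a generator. -/
noncomputable def invK (k : ℕ) : ℕ := lgetD 0 invKL k
/-- The mask of the generators with inverses. -/
def okMask : ℕ := 254
/-- Is this a generator with an inverse? -/
noncomputable def okK (k : ℕ) : Bool := Nat.beq (Nat.land (Nat.shiftRight okMask k) 1) 1

/-- The code of the inverse of a word. -/
noncomputable def wI (l : List ℕ) : ℕ → ℕ := List.rec (fun i => i) (fun k _ ih i => force (Tc (invK k) i) ih) l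

/-- The code of a conjugate of the involution. -/
noncomputable def evC (l : List ℕ) (p : ℕ) : ℕ := wE l (force (wI l p) (Tc 7))

/-- The key of a conjugate of the involution. -/
noncomputable def keyC (l : List ℕ) : ℕ :=
  Nat.add (Nat.mul (Nat.add (Nat.mul (Nat.add (Nat.mul (Nat.add (Nat.mul (evC l 0) 47104) (evC l 1000)) 47104)
    (evC l 20000)) 47104) (evC l 47103)) 47104) (evC l 33333)

/-- The entries of the table of conjugates of the involution. -/
noncomputable def clE (i : ℕ) : ℕ := pgetB 108 324518553658426726783156020576255 10 1023 clB i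
/-- The key of an entry. -/
noncomputable def clK (i : ℕ) : ℕ := Nat.land (clE i) 302231454903657293676543
/-- Decoding a word. -/
noncomputable def decW (W : ℕ) : List ℕ :=
  Nat.rec (fun _ => []) (fun _ ih W => bcond (Nat.beq (Nat.land W 7) 0) [] (Nat.land W 7 :: ih (Nat.shiftRight W 3))) 10 W
/-- The word of an entry. -/
noncomputable def clW (i : ℕ) : List ℕ := decW (Nat.shiftRight (clE i) 78)

/-- A test on all the letters of a word. -/
noncomputable def allOk (l : List ℕ) : Bool := allL okK l

/-- The check of an entry. -/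
noncomputable def clsChk (i : ℕ) : Bool :=
  bcond (allOk (clW i))
    (bcond (Nat.beq (keyC (clW i)) (clK i))
      (bcond (Nat.beq i 56924) true (Nat.blt (clK i) (clK (Nat.succ i)))) false) false

/-- Equality of words on the base. -/
noncomputable def wEqT (l₁ l₂ : List ℕ) : Bool :=
  allL (fun b => Nat.beq (wE l₁ b) (wE l₂ b)) Cfsg.Agent.Lib.KnownSimple.Leech.Co2.baseAll

/-- Substitution in a word. -/
noncomputable def flatW (aw : ℕ → List ℕ) (l : List ℕ) : List ℕ := List.rec [] (fun k _ ih => aw k ++ ih) l

/-- The words of the generators of the centraliser. -/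
def gwF : ℕ → List ℕ
  | 0 => [6, 2, 2]
  | 1 => [6, 6, 2, 4, 4, 6, 1]
  | 2 => [1, 1, 5]
  | 3 => [2, 5, 3, 3, 1, 5, 5]
  | _ => []

/-- The word of the involution. -/
def twL : List ℕ := [1, 1, 5, 1, 1, 5, 1, 1, 5, 1, 1, 5, 1, 1, 5, 1, 1, 5, 1, 1, 5, 1, 1, 5]

/-- The form labelling a point. -/
noncomputable def mk (p : ℕ) : ℕ := pgetB 6 63 10 1023 mkB p

/-- The check of a generator on the points. -/
noncomputable def genChk (k p : ℕ) : Bool := Nat.beq (mk (wE (gwF k) p)) (pik k (mk p))

/-- The check that the involution is trivial on the labels. -/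
noncomputable def tChk (p : ℕ) : Bool := Nat.beq (mk (Tc 7 p)) (mk p)

/-- The words of the generators of the extraspecial group, in the letters. -/
noncomputable def fl (i : ℕ) : List ℕ := flatW gwF (aWL.getD i [])

/-- The check of the commutation relation. -/
noncomputable def chkC (i j : ℕ) : Bool :=
  bcond (Nat.beq j (Nat.xor i 1)) (wEqT (fl i ++ fl j) ([7] ++ (fl j ++ fl i))) (wEqT (fl i ++ fl j) (fl j ++ fl i))

end Cfsg.Agent.Lib.KnownSimple.Co2Inv
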