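import Cfsg.Agent.Lib.KnownSimple.Leech.Co2.InvChk0
import Cfsg.Agent.Lib.KnownSimple.Leech.Co2.InvChk1
import Cfsg.Agent.Lib.KnownSimple.Leech.Co2.InvChk2
import Cfsg.Agent.Lib.KnownSimple.Leech.Co2.InvChkA
import Cfsg.Agent.Lib.KnownSimple.Leech.Co2.InvChkM

/-!
# The second Conway group: an involution with centraliser `2^{1+8} Sp₆(2)`
-/

set_option autoImplicit false

namespace Cfsg.Agent.Lib.KnownSimple.Co2Inv

open Cfsg Cfsg.Spor Cfsg.Agent.Lib.Compute Cfsg.Agent.Lib.Golay Cfsg.Agent.Lib.KnownSimple.PE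
open Cfsg.Agent.Lib.KnownSimple Cfsg.Agent.Lib.KnownSimple.AutRigid
open Cfsg.Agent.Lib.KnownSimple.Leech Cfsg.Agent.Lib.KnownSimple.Leech.Co2Data
open Cfsg.Agent.Lib.KnownSimple.Leech.Co2
open Cfsg.Agent.Lib.KnownSimple.Co2InvData
open Cfsg.Agent.Lib.KnownSimple.MultC.SpP (I3 vec6 ord6 Sp6 rootS rootS_gen vec6_surj)
open Subgroup Matrix
open scoped commutatorElement

theorem force_eq' {β : Type} (n : ℕ) (f : ℕ → β) : force n f = f n := by
  cases n <;> rfl

/-- The generators, without the involution. -/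
noncomputable def gG₀ : ℕ → G
  | 0 => D0
  | 1 => D0
  | 2 => D0⁻¹
  | 3 => D1
  | 4 => D1⁻¹
  | 5 => D2
  | 6 => D2⁻¹
  | _ => 1

/-- The involution as a product. -/
noncomputable def tG : G := (twL.map gG₀).prod

/-- The generators of the group. -/
noncomputable def gG : ℕ → G
  | 0 => D0
  | 1 => D0
  | 2 => D0⁻¹
  | 3 => D1
  | 4 => D1⁻¹
  | 5 => D2
  | 6 => D2⁻¹
  | 7 => tG
  | _ => 1

theorem codei_D0 : E.IsCode ((D0⁻¹ : G) : Equiv.Perm (Fin N)) (pq ti0B) := inv_of_chk code_D0 iChk0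
theorem codei_D1 : E.IsCode ((D1⁻¹ : G) : Equiv.Perm (Fin N)) (pq ti1B) := inv_of_chk code_D1 iChk1
theorem codei_D2 : E.IsCode ((D2⁻¹ : G) : Equiv.Perm (Fin N)) (pq ti2B) := inv_of_chk code_D2 iChk2

/-- The code of a word, without the involution. -/
noncomputable def wE₀ (l : List ℕ) (i : ℕ) : ℕ := List.rec i (fun k _ ih => force ih (pq (lgetD t0B tL k))) l

theorem gG₀_code : ∀ k, k < 7 → E.IsCode ((gG₀ k : G) : Equiv.Perm (Fin N)) (pq (lgetD t0B tL k)) := by
  intro k hk
  interval_cases k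
  · exact code_D0
  · exact code_D0
  · exact codei_D0
  · exact code_D1
  · exact codei_D1
  · exact code_D2
  · exact codei_D2

theorem tChk2 : allBelow (fun i => Nat.beq (wE₀ twL i) (pq tTB i)) N = true := by decide +kernel

theorem tG_code : E.IsCode ((tG : G) : Equiv.Perm (Fin N)) (pq tTB) := by
  have key : ∀ l : List ℕ, (∀ k ∈ l, k < 7) → E.IsCode (((l.map gG₀).prod : G) : Equiv.Perm (Fin N)) (wE₀ l) := by
    intro l
    induction l with
    | nil => intro _ a; rfl
    | cons k l ih =>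
      intro h
      have h1 := coe_code_mul (gG₀_code k (h k List.mem_cons_self)) (ih fun a ha => h a (List.mem_cons_of_mem _ ha))
      intro a
      have h2 : wE₀ (k :: l) a.val = pq (lgetD t0B tL k) (wE₀ l a.val) := force_eq' _ _
      rw [List.map_cons, List.prod_cons]
      show wE₀ (k :: l) a.val = _
      rw [h2]
      exact h1 a
  exact congr_of_chk (key twL (by decide)) tChk2

theorem gG_code (k : ℕ) : E.IsCode ((gG k : G) : Equiv.Perm (Fin N)) (Tc k) := by
  by_cases h : k < 8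
  · have e : Nat.blt k 8 = true := by simpa [Nat.blt_eq] using h
    have e2 : Tc k = pq (lgetD t0B tL k) := by
      funext i
      unfold Tc
      rw [e, bcond_true]
    rw [e2]
    interval_cases k
    · exact code_D0
    · exact code_D0
    · exact codei_D0
    · exact code_D1
    · exact codei_D1
    · exact code_D2
    · exact codei_D2
    · exact tG_code
  · have e : Nat.blt k 8 = false := by
      rw [Bool.eq_false_iff]
      intro h2
      exact h (by simpa [Nat.blt_eq] using h2)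
    have e2 : Tc k = fun i => i := by
      funext i
      unfold Tc
      rw [e, bcond_false]
    obtain ⟨n, rfl⟩ : ∃ n, k = n + 8 := ⟨k - 8, by omega⟩
    rw [e2]
    intro a
    rfl

/-- The value of a word. -/
noncomputable def wG (l : List ℕ) : G := (l.map gG).prod

@[simp] theorem wG_nil : wG [] = 1 := rfl

theorem wG_cons (k : ℕ) (l : List ℕ) : wG (k :: l) = gG k * wG l := by
  simp [wG]

theorem wG_append (l₁ l₂ : List ℕ) : wG (l₁ ++ l₂) = wG l₁ * wG l₂ := by
  simp [wG]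

theorem wE_cons (k : ℕ) (l : List ℕ) (i : ℕ) : wE (k :: l) i = Tc k (wE l i) :=
  force_eq' _ _

theorem wG_code (l : List ℕ) : E.IsCode ((wG l : G) : Equiv.Perm (Fin N)) (wE l) := by
  induction l with
  | nil => intro a; rfl
  | cons k l ih =>
    rw [wG_cons]
    have h := coe_code_mul (gG_code k) ih
    intro a
    rw [wE_cons]
    exact h a

theorem wG_eq {l₁ l₂ : List ℕ} (h : wEqT l₁ l₂ = true) : wG l₁ = wG l₂ := by
  apply Subtype.ext
  refine eq_of_base based_all hbl (wG l₁).2 (wG l₂).2 (wG_code l₁) (wG_code l₂) ?_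
  intro b hb
  exact Nat.eq_of_beq_eq_true (allL_iff.1 h b hb)

theorem code_apply {σ : Equiv.Perm (Fin N)} {f : ℕ → ℕ} (h : E.IsCode σ f) {b : ℕ} (hb : b < N) :
    f b = (σ ⟨b, hb⟩).val := h ⟨b, hb⟩

theorem wEqT_of_eq {l₁ l₂ : List ℕ} (h : wG l₁ = wG l₂) : wEqT l₁ l₂ = true := by
  refine allL_iff.2 fun b hb => ?_
  have hb' : b < N := hbl b hb
  rw [code_apply (wG_code l₁) hb', code_apply (wG_code l₂) hb', h]
  exact Nat.beq_refl _

theorem okK_lt {k : ℕ} (h : okK k = true) : k < 8 := by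
  by_contra h2
  have h3 : Nat.shiftRight okMask k = 0 := by
    show okMask >>> k = 0
    rw [Nat.shiftRight_eq_div_pow]
    refine Nat.div_eq_of_lt (lt_of_lt_of_le (show okMask < 2 ^ 8 by decide) ?_)
    exact Nat.pow_le_pow_right (by norm_num) (by omega)
  have h4 : Nat.beq (Nat.land (Nat.shiftRight okMask k) 1) 1 = true := h
  rw [h3] at h4
  exact Bool.noConfusion h4

theorem invK_spec {k : ℕ} (h : okK k = true) : gG (invK k) = (gG k)⁻¹ := by
  have h1 := wG_eq (invOk k (okK_lt h) h)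
  rw [wG_cons, wG_cons, wG_nil, mul_one] at h1
  exact eq_inv_of_mul_eq_one_left h1

theorem wI_cons (k : ℕ) (l : List ℕ) (i : ℕ) : wI (k :: l) i = wI l (Tc (invK k) i) :=
  force_eq' _ _

theorem wI_code (l : List ℕ) (h : allOk l = true) :
    E.IsCode (((wG l)⁻¹ : G) : Equiv.Perm (Fin N)) (wI l) := by
  induction l with
  | nil =>
    intro a
    rw [wG_nil, inv_one]
    rfl
  | cons k l ih =>
    have h1 : okK k = true := allL_iff.1 h k List.mem_cons_self
    have h2 : allOk l = true := allL_iff.2 fun a ha => allL_iff.1 h a (List.mem_cons_of_mem _ ha)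
    rw [wG_cons, _root_.mul_inv_rev, ← invK_spec h1]
    have h3 := coe_code_mul (ih h2) (gG_code (invK k))
    intro a
    rw [wI_cons]
    exact h3 a

theorem evC_code (l : List ℕ) (h : allOk l = true) :
    E.IsCode ((wG l * gG 7 * (wG l)⁻¹ : G) : Equiv.Perm (Fin N)) (evC l) := by
  have h1 := coe_code_mul (coe_code_mul (wG_code l) (gG_code 7)) (wI_code l h)
  intro a
  have h2 := h1 a
  have e : evC l a.val = wE l (Tc 7 (wI l a.val)) := by
    unfold evC
    rw [force_eq']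
  show evC l (E.idx a) = _
  exact e.trans h2

theorem clsAll : allBelow clsChk (25 * 2277) = true := allBelow_of_chunks (fun c hc => by
    interval_cases c
    · exact cCls0
    · exact cCls1
    · exact cCls2
    · exact cCls3
    · exact cCls4
    · exact cCls5
    · exact cCls6
    · exact cCls7
    · exact cCls8
    · exact cCls9
    · exact cCls10
    · exact cCls11
    · exact cCls12
    · exact cCls13
    · exact cCls14
    · exact cCls15
    · exact cCls16
    · exact cCls17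
    · exact cCls18
    · exact cCls19
    · exact cCls20
    · exact cCls21
    · exact cCls22
    · exact cCls23
    · exact cCls24
  )

theorem cls_spec {i : ℕ} (hi : i < 56925) : allOk (clW i) = true ∧ keyC (clW i) = clK i ∧
    (i ≠ 56924 → clK i < clK (i + 1)) := by
  have h := (allBelow_iff _ _).1 clsAll i (by omega)
  unfold clsChk at h
  cases h1 : allOk (clW i)
  · rw [h1, bcond_false] at h
    exact absurd h (by simp)
  · rw [h1, bcond_true] at h
    cases h2 : Nat.beq (keyC (clW i)) (clK i)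
    · rw [h2, bcond_false] at h
      exact absurd h (by simp)
    · rw [h2, bcond_true] at h
      refine ⟨rfl, Nat.eq_of_beq_eq_true h2, fun h3 => ?_⟩
      have h4 : Nat.beq i 56924 = false := by
        rw [Bool.eq_false_iff]
        exact fun h5 => h3 (Nat.eq_of_beq_eq_true h5)
      rw [h4, bcond_false] at h
      simpa [Nat.blt_eq] using h

theorem clK_lt {i j : ℕ} (hij : i < j) (hj : j < 56925) : clK i < clK j := by
  induction j with
  | zero => omega
  | succ j ih =>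
    have h1 := (cls_spec (i := j) (by omega)).2.2 (by omega)
    rcases Nat.lt_succ_iff_lt_or_eq.1 hij with h | h
    · exact lt_trans (ih h (by omega)) h1
    · subst h
      exact h1

theorem cls_inj (i j : Fin 56925)
    (h : wG (clW i) * gG 7 * (wG (clW i))⁻¹ = wG (clW j) * gG 7 * (wG (clW j))⁻¹) : i = j := by
  obtain ⟨h1, h2, _⟩ := cls_spec i.isLt
  obtain ⟨h3, h4, _⟩ := cls_spec j.isLt
  have hp : ∀ p, p < N → evC (clW i) p = evC (clW j) p := by
    intro p hp
    rw [code_apply (evC_code _ h1) hp, code_apply (evC_code _ h3) hp, h]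
  have hk : clK i = clK j := by
    rw [← h2, ← h4]
    unfold keyC
    rw [hp 0 (by norm_num), hp 1000 (by norm_num), hp 20000 (by norm_num), hp 47103 (by norm_num), hp 33333 (by norm_num)]
  apply Fin.ext
  rcases lt_trichotomy i.val j.val with h5 | h5 | h5
  · exact absurd hk (ne_of_lt (clK_lt h5 j.isLt))
  · exact h5
  · exact absurd hk.symm (ne_of_lt (clK_lt h5 i.isLt))

theorem wG_seven : wG [7] = tG := by
  rw [wG_cons, wG_nil, mul_one]
  rfl

theorem tG_sq : tG * tG = 1 := by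
  have h := wG_eq sqT
  rw [wG_cons, wG_cons, wG_nil, mul_one] at h
  exact h

theorem tG_ne : tG ≠ 1 := by
  intro h
  have h1 := wEqT_of_eq (l₁ := [7]) (l₂ := []) (by rw [wG_seven, h, wG_nil])
  rw [notOne] at h1
  exact Bool.noConfusion h1

/-- The centraliser. -/
noncomputable abbrev CC : Subgroup G := centralizer ({tG} : Set G)

theorem hCbound : Nat.card CC ≤ 743178240 :=
  card_centralizer_le'' (m := 56925) (c := 743178240) tG (fun i => wG (clW i)) cls_inj
    (by rw [show Nat.card G = 42305421312000 from card_H]) (by norm_num)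

theorem mem_CC {g : G} (h : g * tG = tG * g) : g ∈ CC := by
  refine Subgroup.mem_centralizer_iff.2 ?_
  intro y hy
  have hy' : y = tG := hy
  rw [hy']
  exact h.symm

theorem gwF_mem : ∀ k, wG (gwF k) ∈ CC := by
  have key : ∀ k, k < 4 → wG (gwF k) ∈ CC := by
    intro k hk
    apply mem_CC
    have h := wG_eq (commChk k hk)
    rw [wG_append, wG_append, wG_seven] at h
    exact h
  intro k
  match k with
  | 0 => exact key 0 (by norm_num)
  | 1 => exact key 1 (by norm_num)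
  | 2 => exact key 2 (by norm_num)
  | 3 => exact key 3 (by norm_num)
  | (k + 4) => exact CC.one_mem

/-- The generators of the centraliser. -/
noncomputable def cG (k : ℕ) : ↥CC := ⟨wG (gwF k), gwF_mem k⟩

theorem mA_mem : ∀ k, mA k ∈ Matrix.symplecticGroup (Fin 3) (ZMod 2) := by
  intro k
  by_cases hk : k < 4
  · exact SymplecticGroup.mem_iff.2 (symChk k hk)
  · have : mA k = 1 := if_neg hk
    rw [this]
    exact (Matrix.symplecticGroup (Fin 3) (ZMod 2)).one_mem

/-- The generators in the symplectic group. -/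
def sA (k : ℕ) : Sp6 := ⟨mA k, mA_mem k⟩

/-- A word in the centraliser. -/
noncomputable def wC (l : List ℕ) : ↥CC := (l.map cG).prod
/-- A word in the symplectic group. -/
def wA (l : List ℕ) : Sp6 := (l.map sA).prod

theorem wC_cons (k : ℕ) (l : List ℕ) : wC (k :: l) = cG k * wC l := by
  simp [wC]

theorem wA_cons (k : ℕ) (l : List ℕ) : wA (k :: l) = sA k * wA l := by
  simp [wA]

theorem wC_val (l : List ℕ) : ((wC l : ↥CC) : G) = wG (flatW gwF l) := by
  induction l with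
  | nil => rfl
  | cons k l ih =>
    rw [wC_cons]
    show ((cG k : ↥CC) : G) * ((wC l : ↥CC) : G) = wG (gwF k ++ flatW gwF l)
    rw [ih, wG_append]
    rfl

theorem wA_val (l : List ℕ) : ((wA l : Sp6) : Matrix I3 I3 (ZMod 2)) = wMat l := by
  induction l with
  | nil => rfl
  | cons k l ih =>
    rw [wA_cons]
    show ((sA k : Sp6) : Matrix I3 I3 (ZMod 2)) * ((wA l : Sp6) : Matrix I3 I3 (ZMod 2)) = _
    rw [ih]
    simp [wMat, sA]

/-- The graph of the action on quadratic forms. -/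
noncomputable def Γ : Subgroup (↥CC × Sp6) where
  carrier := {x | ∀ (p : Fin N) (v : I3 → ZMod 2),
    qq (mk (((x.1 : G) : Equiv.Perm (Fin N)) p).val) (((x.2 : Sp6) : Matrix I3 I3 (ZMod 2)) *ᵥ v) = qq (mk p.val) v}
  one_mem' := by
    intro p v
    show qq (mk p.val) ((1 : Matrix I3 I3 (ZMod 2)) *ᵥ v) = _
    rw [Matrix.one_mulVec]
  mul_mem' := by
    rintro x y hx hy p v
    have h1 := hx (((y.1 : G) : Equiv.Perm (Fin N)) p) (((y.2 : Sp6) : Matrix I3 I3 (ZMod 2)) *ᵥ v)
    rw [Matrix.mulVec_mulVec] at h1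
    exact h1.trans (hy p v)
  inv_mem' := by
    rintro x hx p v
    have h1 := hx (((x.1⁻¹ : ↥CC) : G).1 p) (((x.2⁻¹ : Sp6) : Matrix I3 I3 (ZMod 2)) *ᵥ v)
    have e1 : ((x.1 : G) : Equiv.Perm (Fin N)) (((x.1⁻¹ : ↥CC) : G).1 p) = p := by
      show ((x.1 : G) : Equiv.Perm (Fin N)) (((x.1 : G) : Equiv.Perm (Fin N))⁻¹ p) = p
      simp
    have e2 : ((x.2 : Sp6) : Matrix I3 I3 (ZMod 2)) * ((x.2⁻¹ : Sp6) : Matrix I3 I3 (ZMod 2)) = 1 := by
      have : ((x.2 * x.2⁻¹ : Sp6) : Matrix I3 I3 (ZMod 2)) = 1 := by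
        rw [mul_inv_cancel]
        rfl
      exact this
    rw [e1, Matrix.mulVec_mulVec, e2, Matrix.one_mulVec] at h1
    exact h1.symm

theorem mem_Γ {x : ↥CC × Sp6} : x ∈ Γ ↔ ∀ (p : Fin N) (v : I3 → ZMod 2),
    qq (mk (((x.1 : G) : Equiv.Perm (Fin N)) p).val) (((x.2 : Sp6) : Matrix I3 I3 (ZMod 2)) *ᵥ v) = qq (mk p.val) v := Iff.rfl

theorem mk_lt (p : ℕ) : mk p < 64 := by
  have h : ∀ a, Nat.land a 63 < 64 := fun a => lt_of_le_of_lt (Nat.and_le_right (n := a) (m := 63)) (by norm_num)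
  unfold mk pgetB
  rw [force_eq']
  exact h _

theorem gen_key (k : ℕ) (hk : k < 2) (h : allBelow (genChk k) N = true) : (cG k, sA k) ∈ Γ := by
  rw [mem_Γ]
  intro p v
  have h1 := (allBelow_iff _ _).1 h p.val p.isLt
  have h2 : mk (wE (gwF k) p.val) = pik k (mk p.val) := Nat.eq_of_beq_eq_true h1
  have h6 : wE (gwF k) p.val = (((wG (gwF k) : G) : Equiv.Perm (Fin N)) p).val := wG_code (gwF k) p
  rw [h6] at h2
  show qq (mk (((wG (gwF k) : G) : Equiv.Perm (Fin N)) p).val) (mA k *ᵥ v) = _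
  rw [h2]
  obtain ⟨m, hm, rfl⟩ := vec6_surj v
  exact formChk k hk _ (mk_lt p.val) m hm

theorem sA_inv0 : sA 2 = (sA 0)⁻¹ := eq_inv_of_mul_eq_one_left (Subtype.ext matInv0)
theorem sA_inv1 : sA 3 = (sA 1)⁻¹ := eq_inv_of_mul_eq_one_left (Subtype.ext matInv1)
theorem cG_inv0 : cG 2 = (cG 0)⁻¹ := eq_inv_of_mul_eq_one_left (Subtype.ext (by
  show wG (gwF 2) * wG (gwF 0) = 1
  rw [← wG_append, wG_eq inv0, wG_nil]))
theorem cG_inv1 : cG 3 = (cG 1)⁻¹ := eq_inv_of_mul_eq_one_left (Subtype.ext (by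
  show wG (gwF 3) * wG (gwF 1) = 1
  rw [← wG_append, wG_eq inv1, wG_nil]))

theorem gen_mem : ∀ k, (cG k, sA k) ∈ Γ := by
  intro k
  match k with
  | 0 => exact gen_key 0 (by norm_num) gChk0
  | 1 => exact gen_key 1 (by norm_num) gChk1
  | 2 =>
    rw [cG_inv0, sA_inv0]
    have h := Γ.inv_mem (gen_key 0 (by norm_num) gChk0)
    rwa [Prod.inv_mk] at h
  | 3 =>
    rw [cG_inv1, sA_inv1]
    have h := Γ.inv_mem (gen_key 1 (by norm_num) gChk1)
    rwa [Prod.inv_mk] at h
  | (k + 4) =>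
    have e1 : cG (k + 4) = 1 := rfl
    have e3 : mA (k + 4) = 1 := if_neg (by omega)
    have e2 : sA (k + 4) = 1 := Subtype.ext e3
    rw [e1, e2]
    exact Γ.one_mem

theorem word_mem (l : List ℕ) : (wC l, wA l) ∈ Γ := by
  induction l with
  | nil => exact Γ.one_mem
  | cons k l ih =>
    rw [wC_cons, wA_cons]
    have h := Γ.mul_mem (gen_mem k) ih
    rwa [Prod.mk_mul_mk] at h

theorem hΓ1 (σ : Sp6) (h : ((1 : ↥CC), σ) ∈ Γ) : σ = 1 := by
  rw [mem_Γ] at h
  have h1 : ∀ (l : ℕ), l < 64 → ∀ v, qq l (((σ : Sp6) : Matrix I3 I3 (ZMod 2)) *ᵥ v) = qq l v := by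
    intro l hl v
    obtain ⟨h2, h3⟩ := witChk l hl
    have h4 : qq (mk (witL.getD l 0)) (((σ : Sp6) : Matrix I3 I3 (ZMod 2)) *ᵥ v) = qq (mk (witL.getD l 0)) v :=
      h ⟨witL.getD l 0, h2⟩ v
    rwa [h3] at h4
  have h6 : ∀ v, ((σ : Sp6) : Matrix I3 I3 (ZMod 2)) *ᵥ v = v := by
    intro v
    obtain ⟨m, hm, hm'⟩ := vec6_surj (((σ : Sp6) : Matrix I3 I3 (ZMod 2)) *ᵥ v)
    obtain ⟨m₂, hm₂, rfl⟩ := vec6_surj v
    rw [← hm']
    have h7 : m = m₂ := sepChk m hm m₂ hm₂ (fun l hl => by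
      rw [hm']
      exact h1 l hl _)
    rw [h7]
  apply Subtype.ext
  show ((σ : Sp6) : Matrix I3 I3 (ZMod 2)) = 1
  ext i j
  have h8 := congrFun (h6 (Pi.single j 1)) i
  rw [Matrix.mulVec_single_one] at h8
  rw [Matrix.one_apply]
  have h9 : (Pi.single j (1 : ZMod 2) : I3 → ZMod 2) i = if i = j then 1 else 0 := by
    simp [Pi.single_apply]
  rw [← h9]
  exact h8

theorem pv_lt : ∀ k, k < 2 → ∀ m, m < 64 → pvk k m < 64 := by decide +kernel

theorem conj_word (l : List ℕ) (hl : ∀ k ∈ l, k < 2) (m : ℕ) (hm : m < 64) :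
    evv l m < 64 ∧
    wMat l * Cfsg.sympTransvection 3 (vec6 m) 1 = Cfsg.sympTransvection 3 (vec6 (evv l m)) 1 * wMat l := by
  induction l with
  | nil => simp [wMat, evv, hm]
  | cons k l ih =>
    have hk := hl k List.mem_cons_self
    obtain ⟨h1, ih2⟩ := ih fun a ha => hl a (List.mem_cons_of_mem _ ha)
    have e1 : wMat (k :: l) = mA k * wMat l := by simp [wMat]
    have e2 : evv (k :: l) m = pvk k (evv l m) := rfl
    refine ⟨by rw [e2]; exact pv_lt k hk _ h1, ?_⟩
    rw [e1, e2, mul_assoc, ih2, ← mul_assoc, conjChk k hk _ h1, mul_assoc]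

theorem tr_lt : ∀ l, l < 64 → ∀ k ∈ trL.getD l [], k < 2 := by decide +kernel

theorem hΓs (σ : Sp6) : ∃ c, (c, σ) ∈ Γ := by
  let PP : Subgroup Sp6 := Γ.map (MonoidHom.snd _ _)
  have hw : ∀ l, wA l ∈ PP := fun l => ⟨(wC l, wA l), word_mem l, rfl⟩
  have h0 : rootS l0N = wA w0L := by
    apply Subtype.ext
    rw [wA_val, wordT]
    rfl
  have htv : ∀ l, l < 64 → rootS l ∈ PP := by
    intro l hl
    by_cases hl0 : l = 0
    · subst hl0
      have : rootS 0 = 1 := Subtype.ext vec0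
      rw [this]
      exact PP.one_mem
    · have h1 := (conj_word (trL.getD l []) (tr_lt l hl) l0N (by decide)).2
      rw [treeChk l hl hl0] at h1
      have h2 : wA (trL.getD l []) * rootS l0N = rootS l * wA (trL.getD l []) := by
        apply Subtype.ext
        show ((wA (trL.getD l []) : Sp6) : Matrix I3 I3 (ZMod 2)) * Cfsg.sympTransvection 3 (vec6 l0N) 1 =
          Cfsg.sympTransvection 3 (vec6 l) 1 * ((wA (trL.getD l []) : Sp6) : Matrix I3 I3 (ZMod 2))
        rw [wA_val]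
        exact h1
      have h3 : rootS l = wA (trL.getD l []) * rootS l0N * (wA (trL.getD l []))⁻¹ := by
        rw [h2]
        group
      rw [h3, h0]
      exact PP.mul_mem (PP.mul_mem (hw _) (hw _)) (PP.inv_mem (hw _))
  have htop : PP = ⊤ := by
    rw [eq_top_iff, ← rootS_gen, Subgroup.closure_le]
    rintro _ ⟨l, hl, rfl⟩
    exact htv l hl
  have hσ : σ ∈ PP := by
    rw [htop]
    exact mem_top σ
  obtain ⟨x, hx, rfl⟩ := hσ
  exact ⟨x.1, hx⟩

/-- The involution in its centraliser. -/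
noncomputable def zC : ↥CC := ⟨tG, mem_CC rfl⟩

theorem hz1 : (zC, (1 : Sp6)) ∈ Γ := by
  rw [mem_Γ]
  intro p v
  have h1 := (allBelow_iff _ _).1 tChkAll p.val p.isLt
  have h2 : mk (Tc 7 p.val) = mk p.val := Nat.eq_of_beq_eq_true h1
  have h3 : Tc 7 p.val = (((gG 7 : G) : Equiv.Perm (Fin N)) p).val := gG_code 7 p
  rw [h3] at h2
  show qq (mk (((gG 7 : G) : Equiv.Perm (Fin N)) p).val) ((1 : Matrix I3 I3 (ZMod 2)) *ᵥ v) = _
  rw [h2, Matrix.one_mulVec]

/-- The elements of the extraspecial group. -/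
noncomputable def aC (i : ℕ) : ↥CC := wC (aWL.getD i [])

theorem aC_mem (i : ℕ) (hi : i < 8) : (aC i, (1 : Sp6)) ∈ Γ := by
  have h := word_mem (aWL.getD i [])
  have e : wA (aWL.getD i []) = 1 := by
    apply Subtype.ext
    rw [wA_val, wordQ i hi]
    rfl
  rwa [e] at h

theorem aC_val (i : ℕ) : ((aC i : ↥CC) : G) = wG (fl i) := wC_val _

/-- The structure in the permutation group. -/
theorem main_G : ∃ ψ : ↥CC →* Sp6, Function.Surjective ψ ∧ Nat.card ψ.ker = 512 ∧ IsExtraspecial 2 ψ.ker := by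
  let K : Subgroup ↥CC := Γ.comap (MonoidHom.inl ↥CC Sp6)
  have hK : ∀ x, x ∈ K ↔ (x, (1 : Sp6)) ∈ Γ := fun x => Iff.rfl
  let zK : ↥K := ⟨zC, hz1⟩
  let aK : Fin 8 → ↥K := fun i => ⟨aC i.val, aC_mem i.val i.isLt⟩
  have hval : ∀ i : Fin 8, ((aK i : ↥K) : ↥CC).1 = wG (fl i.val) := fun i => aC_val i.val
  have hzv : ((zK : ↥K) : ↥CC).1 = tG := rfl
  have hext : ∀ x y : ↥K, ((x : ↥CC) : G) = ((y : ↥CC) : G) → x = y := fun x y h => Subtype.ext (Subtype.ext h)
  have hes := es_of_gens zK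
    (by
      intro h
      apply tG_ne
      exact congrArg (fun u : ↥K => ((u : ↥CC) : G)) h)
    (hext _ _ tG_sq)
    (by
      intro x
      apply hext
      exact (Subgroup.mem_centralizer_iff.1 x.1.2 tG rfl).symm)
    aK
    (by
      intro i
      apply hext
      show ((aK i : ↥K) : ↥CC).1 * ((aK i : ↥K) : ↥CC).1 = tG
      rw [hval, ← wG_append, wG_eq (relSq i.val i.isLt), wG_seven])
    (by
      intro i j hij
      apply hext
      show ((aK i : ↥K) : ↥CC).1 * ((aK j : ↥K) : ↥CC).1 = ((aK j : ↥K) : ↥CC).1 * ((aK i : ↥K) : ↥CC).1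
      rw [hval, hval, ← wG_append, ← wG_append]
      have h1 := relC i.val i.isLt j.val j.isLt
      unfold chkC at h1
      have h2 : Nat.beq j.val (Nat.xor i.val 1) = false := by
        rw [Bool.eq_false_iff]
        intro h3
        apply hij
        apply Fin.ext
        exact Nat.eq_of_beq_eq_true h3
      rw [h2, bcond_false] at h1
      exact wG_eq h1)
    (by
      intro i
      apply hext
      show ((aK i : ↥K) : ↥CC).1 * ((aK (pr i) : ↥K) : ↥CC).1 =
        tG * ((aK (pr i) : ↥K) : ↥CC).1 * ((aK i : ↥K) : ↥CC).1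
      rw [hval, hval, ← wG_append, ← wG_seven, mul_assoc, ← wG_append, ← wG_append]
      have h1 := relC i.val i.isLt (pr i).val (pr i).isLt
      unfold chkC at h1
      have h2 : Nat.beq (pr i).val (Nat.xor i.val 1) = true := Nat.beq_refl _
      rw [h2, bcond_true] at h1
      exact wG_eq h1)
  obtain ⟨hc512, hes2⟩ := hes
  obtain ⟨ψ, hs, -, hc, hker⟩ := exists_psi hCbound Γ hΓ1 hΓs K (fun x hx => hx) hc512
  refine ⟨ψ, hs, hc, ?_⟩
  rw [hker]
  apply hes2
  rw [← hker]
  exact hc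

/-- The structure in the second Conway group. -/
theorem main_Co2 : ∃ t : ↥Cfsg.Spor.Co2, orderOf t = 2 ∧
    Cfsg.IsExtraspecial 2 (Cfsg.pCore 2 ↥(Subgroup.centralizer ({t} : Set ↥Cfsg.Spor.Co2))) ∧
    Nat.card (Cfsg.pCore 2 ↥(Subgroup.centralizer ({t} : Set ↥Cfsg.Spor.Co2))) = 2 ^ 9 ∧
    Nonempty (↥(Subgroup.centralizer ({t} : Set ↥Cfsg.Spor.Co2)) ⧸ Cfsg.pCore 2 ↥(Subgroup.centralizer ({t} : Set ↥Cfsg.Spor.Co2)) ≃*
      Matrix.symplecticGroup (Fin 3) (ZMod 2)) := by
  obtain ⟨ψ, hs, hc, hE⟩ := main_G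
  let e : G ≃* ↥Cfsg.Spor.Co2 := (equivRange R.rep hinj).symm
  have : Finite ↥Cfsg.Spor.Co2 := Finite.of_equiv G e.toEquiv
  obtain ⟨ψ', hs', hc', hE'⟩ := transport (centEquiv' e tG) ψ hs hc hE
  refine ⟨e tG, ?_, final_of ψ' hs' hc' hE'⟩
  rw [MulEquiv.orderOf_eq]
  exact orderOf_eq_prime (by rw [pow_two]; exact tG_sq) tG_ne

end Cfsg.Agent.Lib.KnownSimple.Co2Inv
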